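import Cfsg.Agent.Lib.Piwek.Core

/-!
Finite direct products of the small permutation groups of `Piwek.Core`, and the number of solutions
of `x ^ n = 1` in them.
-/

set_option autoImplicit false

namespace Cfsg.Agent.Lib.Piwek

open Equiv

section cnt

variable {A B : Type} [Group A] [Group B]

theorem cnt_prod (n : ℕ) :
    Nat.card {x : A × B // x ^ n = 1} =
      Nat.card {x : A // x ^ n = 1} * Nat.card {x : B // x ^ n = 1} := by
  rw [← Nat.card_prod]
  apply Nat.card_congr
  refine ⟨fun x => (⟨x.1.1, ?_⟩, ⟨x.1.2, ?_⟩), fun y => ⟨(y.1.1, y.2.1), ?_⟩, ?_, ?_⟩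
  · have := congrArg Prod.fst x.2
    simpa using this
  · have := congrArg Prod.snd x.2
    simpa using this
  · ext <;> simp [y.1.2, y.2.2]
  · intro x; rfl
  · intro y; rfl

end cnt

/-- iterated direct power -/
def Pw (G : Type) : ℕ → Type
  | 0 => PUnit
  | a + 1 => G × Pw G a

/-- group structure on a direct power -/
instance pwGroup (G : Type) [Group G] : (a : ℕ) → Group (Pw G a)
  | 0 => inferInstanceAs (Group PUnit)
  | a + 1 =>
    letI := pwGroup G a
    inferInstanceAs (Group (G × Pw G a))

theorem pwFinite (G : Type) [Finite G] (a : ℕ) : Finite (Pw G a) := by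
  induction a with
  | zero => exact inferInstanceAs (Finite PUnit)
  | succ a ih => exact inferInstanceAs (Finite (G × Pw G a))

theorem pwSolvable (G : Type) [Group G] [Group.IsSolvable G] (a : ℕ) :
    Group.IsSolvable (Pw G a) := by
  induction a with
  | zero => exact inferInstanceAs (Group.IsSolvable PUnit)
  | succ a ih => exact inferInstanceAs (Group.IsSolvable (G × Pw G a))

theorem cnt_pw (G : Type) [Group G] (a n : ℕ) :
    Nat.card {x : Pw G a // x ^ n = 1} = Nat.card {x : G // x ^ n = 1} ^ a := by
  induction a with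
  | zero =>
    haveI : Subsingleton (Pw G 0) := inferInstanceAs (Subsingleton PUnit)
    haveI : Subsingleton {x : Pw G 0 // x ^ n = 1} := inferInstance
    haveI : Nonempty {x : Pw G 0 // x ^ n = 1} := ⟨⟨1, one_pow _⟩⟩
    rw [pow_zero, Nat.card_unique]
  | succ a ih =>
    have := cnt_prod (A := G) (B := Pw G a) n
    rw [ih] at this
    rw [pow_succ, mul_comm]
    exact this

/-- a factor of the product: the group generated by `gens`, with multiplicity `a`,
and table `fv` of the numbers of solutions of `x ^ d = 1` -/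
structure Rec where
  m : ℕ
  gens : List ℕ
  a : ℕ
  fv : List (ℕ × ℕ)

/-- the direct product of the factors -/
def Big : List Rec → Type
  | [] => PUnit
  | r :: l => Pw (grp r.m r.gens) r.a × Big l

/-- group structure on the direct product -/
noncomputable instance bigGroup : (l : List Rec) → Group (Big l)
  | [] => inferInstanceAs (Group PUnit)
  | r :: l =>
    letI := bigGroup l
    inferInstanceAs (Group (Pw (grp r.m r.gens) r.a × Big l))

theorem bigFinite (l : List Rec) : Finite (Big l) := by
  induction l with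
  | nil => exact inferInstanceAs (Finite PUnit)
  | cons r l ih =>
    haveI := pwFinite (grp r.m r.gens) r.a
    exact inferInstanceAs (Finite (Pw (grp r.m r.gens) r.a × Big l))

theorem bigSolvable (l : List Rec) (h : ∀ r ∈ l, Group.IsSolvable (grp r.m r.gens)) :
    Group.IsSolvable (Big l) := by
  induction l with
  | nil => exact inferInstanceAs (Group.IsSolvable PUnit)
  | cons r l ih =>
    haveI := ih (fun r hr => h r (by simp [hr]))
    haveI := h r (by simp)
    haveI := pwSolvable (grp r.m r.gens) r.a
    exact inferInstanceAs (Group.IsSolvable (Pw (grp r.m r.gens) r.a × Big l))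

/-- table lookup -/
def lk (d : ℕ) : List (ℕ × ℕ) → ℕ
  | [] => 0
  | p :: l => cond (Nat.beq p.1 d) p.2 (lk d l)

theorem lk_mem {d : ℕ} {l : List (ℕ × ℕ)} (h : l.any (fun p => Nat.beq p.1 d) = true) :
    (d, lk d l) ∈ l := by
  induction l with
  | nil => simp at h
  | cons p l ih =>
    simp only [lk]
    cases h1 : Nat.beq p.1 d with
    | true =>
      have : p.1 = d := Nat.eq_of_beq_eq_true h1
      subst this
      simp
    | false =>
      rw [List.any_cons, h1, Bool.false_or] at h
      simpa using Or.inr (ih h)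

/-- the divisors of `84` -/
def div84 : List ℕ := [1, 2, 3, 4, 6, 7, 12, 14, 21, 28, 42, 84]

theorem gcd_mem_div84 (n : ℕ) : Nat.gcd n 84 ∈ div84 := by
  have h : Nat.gcd n 84 ∣ 84 := Nat.gcd_dvd_right _ _
  have hle : Nat.gcd n 84 ≤ 84 := Nat.le_of_dvd (by norm_num) h
  have key : ∀ k ≤ 84, k ∣ 84 → k ∈ div84 := by decide
  exact key _ hle h

/-- the check for a factor -/
def checkR (r : Rec) : Bool :=
  checkG r.m r.gens r.fv && div84.all (fun d => r.fv.any (fun p => Nat.beq p.1 d))

theorem cnt_grp {r : Rec} (h : checkR r = true) (n : ℕ) :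
    Nat.card {x : grp r.m r.gens // x ^ n = 1} = lk (Nat.gcd n 84) r.fv := by
  simp only [checkR, Bool.and_eq_true, List.all_eq_true] at h
  obtain ⟨h1, h2⟩ := h
  rw [← card_solutions h1 (lk_mem (h2 _ (gcd_mem_div84 n)))]
  apply Nat.card_congr
  refine Equiv.subtypeEquivRight fun x => ?_
  rw [pow_gcd_eq_one]
  exact ⟨fun hx => ⟨hx, pow_84 h1 x⟩, fun hx => hx.1⟩

/-- number of solutions in the whole product, given `d = gcd n 84` -/
def valB (d : ℕ) : List Rec → ℕ
  | [] => 1
  | r :: l => Nat.mul (Nat.pow (lk d r.fv) r.a) (valB d l)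

theorem cnt_big (l : List Rec) (h : ∀ r ∈ l, checkR r = true) (n : ℕ) :
    Nat.card {x : Big l // x ^ n = 1} = valB (Nat.gcd n 84) l := by
  induction l with
  | nil =>
    haveI : Subsingleton (Big []) := inferInstanceAs (Subsingleton PUnit)
    haveI : Subsingleton {x : Big [] // x ^ n = 1} := inferInstance
    haveI : Nonempty {x : Big [] // x ^ n = 1} := ⟨⟨1, one_pow _⟩⟩
    rw [Nat.card_unique]
    rfl
  | cons r l ih =>
    have := cnt_prod (A := Pw (grp r.m r.gens) r.a) (B := Big l) n
    rw [ih (fun r hr => h r (by simp [hr])), cnt_pw, cnt_grp (h r (by simp))] at this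
    exact this

/-- a surjection from the product on any of the factors' base groups -/
theorem bigNotSolvable (r : Rec) (hr : 0 < r.a) (l : List Rec)
    (h : ¬ Group.IsSolvable (grp r.m r.gens)) : ¬ Group.IsSolvable (Big (r :: l)) := by
  intro hs
  apply h
  obtain ⟨a, ha⟩ : ∃ a, r.a = a + 1 := ⟨r.a - 1, by omega⟩
  have h1 : Group.IsSolvable (Pw (grp r.m r.gens) r.a) :=
    Group.isSolvable_of_surjective (G := Big (r :: l)) (f := MonoidHom.fst _ _)
      (fun x => ⟨(x, 1), rfl⟩)
  revert h1
  rw [ha]
  intro h1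
  exact Group.isSolvable_of_surjective (G := Pw (grp r.m r.gens) (a + 1))
    (f := MonoidHom.fst (grp r.m r.gens) (Pw (grp r.m r.gens) a))
    (fun x => ⟨(x, 1), rfl⟩)

end Cfsg.Agent.Lib.Piwek
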